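import Mathlib
import Cfsg.Agent.H364.SpSmall
import Cfsg.Agent.S0245
import Cfsg.Agent.S0246
import Cfsg.Agent.S0270
import Cfsg.Agent.S0292
import Cfsg.Agent.S0295
import Cfsg.Agent.S2141
import Cfsg.Agent.S2142
import Cfsg.Agent.S2143
import Cfsg.Agent.S2144

/-!
# S3677, piece G2: the `l`-part of `|L|` is at most the smallest class size `> 1`, `L = PSp(2n, q)`, `PΩ(2n + 1, q)` (helper478)
-/

set_option autoImplicit false

namespace Cfsg.Agent.H478.CS.MinSize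

open Finset Subgroup Cfsg Cfsg.Agent.H902.Lte Cfsg.Agent.H902.Art Cfsg.Agent.H364.SpVal Cfsg.Agent.H364.SpSmall

universe v

/-! ### The order of `l` and the `l`-part -/

/-- `3 (x + 1)⁴ ≤ x⁶`, `x ≥ 4` -/
theorem six_le {x : ℕ} (hx : 4 ≤ x) : 3 * (x + 1) ^ 4 ≤ x ^ 6 := by
  obtain ⟨y, rfl⟩ := Nat.exists_eq_add_of_le hx
  nlinarith [Nat.zero_le y, Nat.zero_le (y ^ 2), Nat.zero_le (y ^ 3), Nat.zero_le (y ^ 4), Nat.zero_le (y ^ 5),
    Nat.zero_le (y ^ 6)]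

theorem four_le' {x : ℕ} (hx : 4 ≤ x) : 3 * (x + 1) ^ 2 ≤ x ^ 4 := by
  obtain ⟨y, rfl⟩ := Nat.exists_eq_add_of_le hx
  nlinarith [Nat.zero_le y, Nat.zero_le (y ^ 2), Nat.zero_le (y ^ 3), Nat.zero_le (y ^ 4)]

/-- the numerical inequality for `k ≥ 2` blocks -/
theorem blocks {x : ℕ} (hx : 4 ≤ x) (j : ℕ) :
    ((x + 1) ^ 2) ^ (j + 2) * 3 ^ (j + 1) * x ^ 2 ≤ x ^ (4 * (j + 2)) := by
  have h1 := six_le hx
  have h2 := four_le' hx
  calc ((x + 1) ^ 2) ^ (j + 2) * 3 ^ (j + 1) * x ^ 2 = (3 * (x + 1) ^ 2) ^ j * (3 * (x + 1) ^ 4) * x ^ 2 := by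
        rw [mul_pow 3]; ring
    _ ≤ (x ^ 4) ^ j * x ^ 6 * x ^ 2 :=
        Nat.mul_le_mul_right _ (Nat.mul_le_mul (Nat.pow_le_pow_left h2 j) h1)
    _ = x ^ (4 * (j + 2)) := by rw [← pow_mul]; ring

/-- the main inequality: `e` with `q ^ e ≥ 4` -/
theorem sq_le {q n e A : ℕ} (hq : 2 ≤ q) (he : 1 ≤ e) (hen : e ≤ n) (hx : 4 ≤ q ^ e) (hn : 3 ≤ n)
    (hA : A ^ 2 ≤ ((q ^ e + 1) ^ 2) ^ (n / e) * 3 ^ (n / e - 1)) :
    (3 ≤ q → A ≤ q ^ (2 * n - 1)) ∧ (q = 2 → A ≤ q ^ (2 * n - 2)) := by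
  set x := q ^ e with hxdef
  have hk : 1 ≤ n / e := Nat.div_pos hen (by omega)
  have hek : e * (n / e) ≤ n := Nat.mul_div_le n e
  rcases Nat.lt_or_ge (n / e) 2 with h | h
  · have h1 : n / e = 1 := by omega
    rw [h1, pow_one, Nat.sub_self, pow_zero, mul_one] at hA
    have h2 : A ≤ x + 1 := le_of_sq_le hA
    have h3 : x ≤ q ^ n := Nat.pow_le_pow_right (by omega) hen
    constructor
    · intro h3
      have h4 : q ^ n * q ≤ q ^ (2 * n - 1) := by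
        rw [← pow_succ]; exact Nat.pow_le_pow_right (by omega) (by omega)
      have h5 : q ^ n * 3 ≤ q ^ n * q := Nat.mul_le_mul_left _ h3
      have h6 : 1 ≤ q ^ n := Nat.one_le_pow _ _ (by omega)
      omega
    · intro h3
      have h4 : q ^ n * 2 ≤ q ^ (2 * n - 2) := by
        rw [h3, ← pow_succ]; exact Nat.pow_le_pow_right (by omega) (by omega)
      have h6 : 1 ≤ q ^ n := Nat.one_le_pow _ _ (by omega)
      omega
  · obtain ⟨j, hj⟩ := Nat.exists_eq_add_of_le' h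
    rw [hj] at hA hek
    have h1 := blocks hx j
    have h2 : x ^ (4 * (j + 2)) ≤ q ^ (4 * n) := by
      rw [hxdef, ← pow_mul]
      apply Nat.pow_le_pow_right (by omega)
      calc e * (4 * (j + 2)) = 4 * (e * (j + 2)) := by ring
        _ ≤ 4 * n := Nat.mul_le_mul_left _ hek
    have h3 : A ^ 2 * x ^ 2 ≤ q ^ (4 * n) := (Nat.mul_le_mul_right _ hA).trans (h1.trans h2)
    constructor
    · intro hq3
      have h4 : q ≤ x := Nat.le_self_pow (by omega) q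
      apply le_of_sq_le
      have h5 : A ^ 2 * q ^ 2 ≤ (q ^ (2 * n - 1)) ^ 2 * q ^ 2 := by
        calc A ^ 2 * q ^ 2 ≤ A ^ 2 * x ^ 2 := Nat.mul_le_mul_left _ (Nat.pow_le_pow_left h4 2)
          _ ≤ q ^ (4 * n) := h3
          _ = _ := by rw [← pow_mul, ← pow_add]; congr 1; omega
      exact Nat.le_of_mul_le_mul_right h5 (pow_pos (by omega) 2)
    · intro hq2
      apply le_of_sq_le
      have h5 : A ^ 2 * 4 ^ 2 ≤ (q ^ (2 * n - 2)) ^ 2 * 4 ^ 2 := by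
        calc A ^ 2 * 4 ^ 2 ≤ A ^ 2 * x ^ 2 := Nat.mul_le_mul_left _ (Nat.pow_le_pow_left hx 2)
          _ ≤ q ^ (4 * n) := h3
          _ = _ := by
            rw [hq2, show (4 : ℕ) ^ 2 = 2 ^ 4 by norm_num, ← pow_mul, ← pow_add]; congr 1; omega
      exact Nat.le_of_mul_le_mul_right h5 (by norm_num)

/-- odd `l` -/
theorem P_odd {q n l : ℕ} (hl : l.Prime) (hl2 : l ≠ 2) (hq : 2 ≤ q) (hlq : ¬ l ∣ q) (hn : 3 ≤ n)
    (h2 : ¬ (q = 2 ∧ l = 3)) :
    (3 ≤ q → P l (AA n q) ≤ q ^ (2 * n - 1)) ∧ (q = 2 → P l (AA n q) ≤ q ^ (2 * n - 2)) := by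
  obtain ⟨he, h | ⟨h3, h4⟩⟩ := PC_odd' hl hl2 hq hlq n
  · rw [h.2]
    exact ⟨fun _ => Nat.one_le_pow _ _ (by omega), fun _ => Nat.one_le_pow _ _ (by omega)⟩
  · refine sq_le hq he h3 ?_ hn h4
    -- `q ^ e ≥ 4`
    by_contra hcon
    push Not at hcon
    have he1 : orderOf ((q ^ 2 : ℕ) : ZMod l) = 1 := by
      by_contra hne
      have h5 : 2 ≤ orderOf ((q ^ 2 : ℕ) : ZMod l) := by omega
      have h6 : 2 ^ 2 ≤ q ^ orderOf ((q ^ 2 : ℕ) : ZMod l) :=
        (Nat.pow_le_pow_left hq 2).trans (Nat.pow_le_pow_right (by omega) h5)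
      omega
    rw [he1, pow_one] at hcon
    rw [orderOf_eq_one_iff, ← Nat.cast_one, ZMod.natCast_eq_natCast_iff] at he1
    have h7 : l ∣ q ^ 2 - 1 := (Nat.modEq_iff_dvd' (Nat.one_le_pow _ _ (by omega))).1 he1.symm
    rcases (by omega : q = 2 ∨ q = 3) with rfl | rfl
    · have h8 : l ∣ 3 := by simpa using h7
      exact h2 ⟨rfl, (Nat.prime_dvd_prime_iff_eq hl Nat.prime_three).1 h8⟩
    · have h8 : l ∣ 2 ^ 3 := by simpa using h7
      exact hl2 ((Nat.prime_dvd_prime_iff_eq hl Nat.prime_two).1 (hl.dvd_of_dvd_pow h8))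

/-- `l = 2`, `q ≥ 5` odd -/
theorem two_le {q n A : ℕ} (hq : 5 ≤ q) (hn : 3 ≤ n) (hA : A ≤ (4 * (q + 1)) ^ n / 4) :
    A ≤ (q ^ (2 * n) - 1) / (q - 1) := by
  rw [Nat.le_div_iff_mul_le (by omega)]
  have h0 : (4 * (q + 1)) ^ n / 4 = 4 ^ (n - 1) * (q + 1) ^ n := by
    obtain ⟨m, rfl⟩ := Nat.exists_eq_add_of_le' (show 1 ≤ n by omega)
    rw [mul_pow, Nat.add_sub_cancel, pow_succ 4, mul_comm (4 ^ m) 4, mul_assoc, Nat.mul_div_cancel_left _ (by norm_num)]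
  rw [h0] at hA
  -- `(4 (q + 1)) ^ (n - 1) (q + 1) (q - 1) ≤ q ^ (2 n) - 1`
  have h1 : 4 * (q + 1) ≤ q ^ 2 := by nlinarith
  have h2 : (4 * (q + 1)) ^ (n - 1) ≤ (q ^ 2) ^ (n - 1) := Nat.pow_le_pow_left h1 _
  have h3 : A * (q - 1) ≤ (4 * (q + 1)) ^ (n - 1) * ((q + 1) * (q - 1)) := by
    obtain ⟨m, rfl⟩ := Nat.exists_eq_add_of_le' (show 1 ≤ n by omega)
    rw [Nat.add_sub_cancel] at hA ⊢
    calc A * (q - 1) ≤ 4 ^ m * (q + 1) ^ (m + 1) * (q - 1) := Nat.mul_le_mul_right _ hA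
      _ = _ := by rw [mul_pow, pow_succ]; ring
  have h4 : (q + 1) * (q - 1) + 1 = q ^ 2 := by
    obtain ⟨m, rfl⟩ := Nat.exists_eq_add_of_le' (show 1 ≤ q by omega)
    rw [Nat.add_sub_cancel]; ring
  have h5 : (q ^ 2) ^ (n - 1) * q ^ 2 = q ^ (2 * n) := by
    rw [← pow_mul, ← pow_add]; congr 1; omega
  have h6 : 1 ≤ (q ^ 2) ^ (n - 1) := Nat.one_le_pow _ _ (pow_pos (by omega) 2)
  have h7 : A * (q - 1) ≤ (q ^ 2) ^ (n - 1) * ((q + 1) * (q - 1)) := h3.trans (Nat.mul_le_mul_right _ h2)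
  have h8 : (q ^ 2) ^ (n - 1) * ((q + 1) * (q - 1)) + (q ^ 2) ^ (n - 1) = q ^ (2 * n) := by
    rw [← h5, ← h4]; ring
  omega

/-! ### The degrees -/

theorem deg_ge {q n : ℕ} (hq : 2 ≤ q) (hn : 1 ≤ n) : q ^ (2 * n - 1) ≤ (q ^ (2 * n) - 1) / (q - 1) := by
  rw [Nat.le_div_iff_mul_le (by omega), Nat.mul_sub, mul_one, ← pow_succ, show 2 * n - 1 + 1 = 2 * n by omega]
  have := Nat.one_le_pow (2 * n - 1) q (by omega)
  omega

/-- **the number**: the `l`-part of the order is at most the degree -/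
theorem part_le {n p f M l : ℕ} (hY : Real (.C n) p f M) (hn : 3 ≤ n) (hl : l.Prime) (hlp : l ≠ p)
    (h2 : ¬ (p ^ f = 2 ∧ l = 3)) (h3 : ¬ (p ^ f = 3 ∧ l = 2)) :
    (3 ≤ p ^ f → P l M ≤ ((p ^ f) ^ (2 * n) - 1) / (p ^ f - 1)) ∧
      (p ^ f = 2 → P l M ≤ 2 ^ (n - 1) * (2 ^ n - 1)) ∧
      (p ^ f = 3 → P l M ≤ 3 ^ n * (3 ^ n - 1) / 2) := by
  have hq2 := hY.q_ge
  have hlq := hY.not_dvd_q hl hlp
  have hle : P l M ≤ P l (AA n (p ^ f)) := hY.P_other_le hl hlp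
  by_cases hl2 : l = 2
  · subst hl2
    have hodd : Odd (p ^ f) := Nat.not_even_iff_odd.1 fun h => hlq h.two_dvd
    have hq3 : p ^ f ≠ 3 := fun h => h3 ⟨h, rfl⟩
    have hq5 : 5 ≤ p ^ f := by rcases hodd with ⟨k, hk⟩; omega
    exact ⟨fun _ => two_le hq5 hn (P_two_le hY rfl hlp (by omega)), fun h => by omega, fun h => absurd h hq3⟩
  · obtain ⟨ha, hb⟩ := P_odd hl hl2 hq2 hlq hn h2
    refine ⟨fun h => hle.trans ((ha h).trans (deg_ge hq2 (by omega))), fun h => hle.trans ((hb h).trans ?_),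
      fun h => hle.trans ((ha (by omega)).trans ?_)⟩
    · rw [h, show 2 * n - 2 = (n - 1) + (n - 1) by omega, pow_add]
      apply Nat.mul_le_mul_left
      have h5 : 2 ^ n = 2 ^ (n - 1) * 2 := by rw [← pow_succ]; congr 1; omega
      have := Nat.one_le_pow (n - 1) 2 (by norm_num)
      omega
    · rw [h, Nat.le_div_iff_mul_le (by norm_num), show 2 * n - 1 = n + (n - 1) by omega, pow_add, mul_assoc]
      apply Nat.mul_le_mul_left
      have h5 : 3 ^ n = 3 ^ (n - 1) * 3 := by rw [← pow_succ]; congr 1; omega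
      have := Nat.one_le_pow (n - 1) 3 (by norm_num)
      omega

/-! ### The groups -/

variable {F : Type v} [Field F] [Fintype F] {n p f : ℕ}

theorem psp_real' (hp : p.Prime) (hf : 1 ≤ f) (hF : Fintype.card F = p ^ f) (hm : 2 ≤ n) (hm2 : n = 2 → 3 ≤ p ^ f) :
    Real (.C n) p f (Nat.card (PSp n F)) := by
  refine ⟨hp, hf, ⟨hm, hm2⟩, ?_⟩
  have h1 := Cfsg.Agent.S0245.result (F := F) hF n
  have h2 := Cfsg.Agent.S0246.result (F := F) hF n (by omega)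
  have h3 := Subgroup.card_eq_card_quotient_mul_card_subgroup
    (Subgroup.center (Matrix.symplecticGroup (Fin n) F))
  rw [h1, h2] at h3
  change Nat.gcd 2 (p ^ f - 1) * Nat.card (PSp n F) = _
  rw [mul_comm]
  exact h3.symm

theorem oodd_real' (hp : p.Prime) (hf : 1 ≤ f) (hF : Fintype.card F = p ^ f) (hm : 3 ≤ n) (ho : Odd (p ^ f)) :
    Real (.C n) p f (Nat.card (POmega F (quadFormOdd n F))) := by
  refine ⟨hp, hf, ⟨by omega, fun h => by omega⟩, ?_⟩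
  have h := Cfsg.Agent.S0292.result (F := F) hF ho n hm
  have hq : 1 ≤ p ^ f := Nat.one_le_pow _ _ hp.pos
  have h2 : Nat.gcd 2 (p ^ f - 1) = 2 := by
    apply Nat.gcd_eq_left
    rw [← even_iff_two_dvd, Nat.even_sub hq]
    constructor
    · intro h3
      exact absurd h3 (Nat.not_even_iff_odd.2 ho)
    · intro h3
      exact absurd h3 (by decide)
  change Nat.gcd 2 (p ^ f - 1) * _ = _
  rw [h2]
  exact h

/-- in a simple group of composite order the centralizers of `x ≠ 1` are proper -/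
theorem cent_ne_top {G : Type v} [Group G] [Finite G] [IsSimpleGroup G] (hG : ¬ (Nat.card G).Prime) {x : G}
    (hx : x ≠ 1) : centralizer ({x} : Set G) ≠ ⊤ := by
  intro h
  have h1 : x ∈ center G := by
    rw [mem_center_iff]
    intro g
    have h2 : g ∈ centralizer ({x} : Set G) := h ▸ mem_top g
    exact (mem_centralizer_singleton_iff.1 h2)
  have h2 : center G = ⊤ := by
    rcases IsSimpleGroup.eq_bot_or_eq_top_of_normal (center G) inferInstance with h3 | h3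
    · rw [h3] at h1
      exact absurd (mem_bot.1 h1) hx
    · exact h3
  have h3 : ∀ a b : G, a * b = b * a := fun a b => by
    have : b ∈ center G := h2 ▸ mem_top b
    exact mem_center_iff.1 this a
  let _ : CommGroup G := { ‹Group G› with mul_comm := h3 }
  exact hG IsSimpleGroup.prime_card

/-- the order is not a prime -/
theorem not_prime {M : ℕ} (hY : Real (.C n) p f M) (hn : 3 ≤ n) : ¬ M.Prime := by
  intro hM
  have h1 : P p M = (p ^ f) ^ (n ^ 2) := hY.P_self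
  have hp := hY.hp
  have hf := hY.hf
  have h2 : p ^ 2 ∣ M := by
    have h3 : P p M ∣ M := Nat.ordProj_dvd M p
    refine dvd_trans ?_ h3
    rw [h1, ← pow_mul]
    refine pow_dvd_pow p ?_
    have : 1 * 3 ^ 2 ≤ f * n ^ 2 := Nat.mul_le_mul hf (Nat.pow_le_pow_left hn 2)
    omega
  have h3 : p ∣ M := (dvd_pow_self p two_ne_zero).trans h2
  have h4 := (Nat.prime_dvd_prime_iff_eq hp hM).1 h3
  subst h4
  have h5 := Nat.le_of_dvd hp.pos h2
  have := hp.two_le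
  nlinarith

/-- G2 for `PSp(2n, q)` -/
theorem min_psp (hp : p.Prime) (hf : 1 ≤ f) (hF : Fintype.card F = p ^ f) (hn : 3 ≤ n) (x : PSp n F) (hx : x ≠ 1)
    {l : ℕ} (hl : l.Prime) (hlp : l ≠ p) (h2 : ¬ (p ^ f = 2 ∧ l = 3)) (h3 : ¬ (p ^ f = 3 ∧ l = 2)) :
    l ^ (Nat.card (PSp n F)).factorization l ≤ (centralizer ({x} : Set (PSp n F))).index := by
  have hY : Real (.C n) p f (Nat.card (PSp n F)) := psp_real' hp hf hF (by omega) (by omega)
  have hs : IsSimpleGroup (PSp n F) := Cfsg.Agent.S0270.result n (by omega) fun h2 => absurd h2 (by omega)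
  have hfin : Finite (PSp n F) := Nat.finite_of_card_ne_zero fun h => by
    have := hY.M_ne
    omega
  have hne := cent_ne_top (not_prime hY hn) hx
  obtain ⟨ha, hb, -⟩ := part_le hY hn hl hlp h2 h3
  rcases (hY.q_ge : 2 ≤ p ^ f).eq_or_lt with h | h
  · exact (hb h.symm).trans ((Cfsg.Agent.S2142.result (hF.trans h.symm) n hn).1 _ hne)
  · exact (ha h).trans ((Cfsg.Agent.S2141.result hF n (by omega) h (by omega)).1 _ hne)

/-- G2 for `PΩ(2n + 1, q)` -/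
theorem min_odd (hp : p.Prime) (hp2 : p ≠ 2) (hf : 1 ≤ f) (hF : Fintype.card F = p ^ f) (hn : 3 ≤ n)
    (x : POmega F (quadFormOdd n F)) (hx : x ≠ 1) {l : ℕ} (hl : l.Prime) (hlp : l ≠ p) (h3 : ¬ (p ^ f = 3 ∧ l = 2)) :
    l ^ (Nat.card (POmega F (quadFormOdd n F))).factorization l ≤
      (centralizer ({x} : Set (POmega F (quadFormOdd n F)))).index := by
  have hodd : Odd (p ^ f) := (hp.odd_of_ne_two hp2).pow
  have hY : Real (.C n) p f (Nat.card (POmega F (quadFormOdd n F))) := oodd_real' hp hf hF hn hodd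
  have hs : IsSimpleGroup (POmega F (quadFormOdd n F)) := Cfsg.Agent.S0295.result (hF ▸ hodd) n hn
  have hfin : Finite (POmega F (quadFormOdd n F)) := Nat.finite_of_card_ne_zero fun h => by
    have := hY.M_ne
    omega
  have hne := cent_ne_top (not_prime hY hn) hx
  have h2 : ¬ (p ^ f = 2 ∧ l = 3) := fun h => by
    rw [h.1] at hodd
    exact absurd hodd (by decide)
  obtain ⟨ha, -, hb⟩ := part_le hY hn hl hlp h2 h3
  have hq2 : 2 ≤ p ^ f := hY.q_ge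
  by_cases h : p ^ f = 3
  · exact (hb h).trans ((Cfsg.Agent.S2144.result (hF.trans h) n hn).1 _ hne)
  · have h5 : 5 ≤ p ^ f := by rcases hodd with ⟨k, hk⟩; omega
    exact (ha (by omega)).trans ((Cfsg.Agent.S2143.result hF hodd h5 n hn).1 _ hne)

end Cfsg.Agent.H478.CS.MinSize
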